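import Mathlib
import Cfsg.Agent.Lib.Helper19.DG33.Model

/-!
# DG33 (S3670), [RAW] sub-packages: common lemmas on the Borel subgroup of the model
-/

set_option autoImplicit false

namespace Cfsg.Agent.Lib.Helper38.DG33

open Matrix Cfsg.Agent.Lib.Helper45 Cfsg.Agent.Lib.Helper86.Un Cfsg.Agent.Lib.Helper86.SU3
  Cfsg.Agent.Lib.Helper86.SL3 Cfsg.Agent.Lib.Helper14.DG33 Cfsg.Agent.Lib.Helper19.DG33

universe u

variable {F : Type u} [Field F] [Fintype F]

theorem rev0 : Fin.rev (0 : Fin 3) = 2 := rfl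
theorem rev1 : Fin.rev (1 : Fin 3) = 1 := rfl
theorem rev2 : Fin.rev (2 : Fin 3) = 0 := rfl

/-- the unitarity relations on the diagonal of an upper triangular element -/
theorem bm_diag (hF : Fintype.card F = 3 ^ 2) (g : UJ 3 (sigmaQ hF)) (hg : g ∈ Bm hF) :
    sigmaQ hF (mat g 2 2) * mat g 0 0 = 1 ∧ mat g 0 0 * mat g 1 1 * mat g 2 2 = 1 := by
  obtain ⟨g1, g2, g3⟩ := hg
  have hv := valid_mat g
  constructor
  · have h00 := congrFun (congrFun hv.2 0) 0
    simp only [Matrix.mul_apply, Fin.sum_univ_three, adj_apply, Matrix.one_apply, rev0, rev1,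
      rev2, g1, g2, mul_zero, add_zero] at h00
    simpa using h00
  · have hd := hv.1
    rw [Matrix.det_fin_three, g1, g2, g3] at hd
    simpa using hd

/-- an upper triangular element with `(0,0)`-entry `1` is unipotent -/
theorem mem_Pm_of_one (hF : Fintype.card F = 3 ^ 2) (g : UJ 3 (sigmaQ hF)) (hg : g ∈ Bm hF)
    (h00 : mat g 0 0 = 1) : g ∈ Pm hF := by
  obtain ⟨h1, h2⟩ := bm_diag hF g hg
  rw [h00, mul_one] at h1
  have h22 : mat g 2 2 = 1 := by
    have := congrArg (sigmaQ hF) h1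
    rwa [sig_sig, map_one] at this
  rw [h00, h22, one_mul, mul_one] at h2
  exact ⟨hg, h00, h2, h22⟩

theorem tm_pow (hF : Fintype.card F = 3 ^ 2) (ζ : Fˣ) (k : ℕ) :
    tm hF ζ ^ k = tm hF (ζ ^ k) := by
  unfold tm
  rw [map_pow]

theorem tm_zpow (hF : Fintype.card F = 3 ^ 2) (ζ : Fˣ) (k : ℤ) :
    tm hF ζ ^ k = tm hF (ζ ^ k) := by
  unfold tm
  rw [map_zpow]

theorem tm_mem_Bm (hF : Fintype.card F = 3 ^ 2) (ζ : Fˣ) : tm hF ζ ∈ Bm hF := by
  rw [mem_Bm, mat_tm]
  simp [T3, D3]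

/-- a unit of order `8` generates the unit group of a field of order `9` -/
theorem exists_pow_of_order (hF : Fintype.card F = 3 ^ 2) (ζ : Fˣ) (hζ : orderOf ζ = 8) (u : Fˣ) :
    ∃ k : ℕ, ζ ^ k = u := by
  have hcard : Nat.card Fˣ = 8 := by
    rw [Nat.card_units, Nat.card_eq_fintype_card, hF]
    norm_num
  have htop : Subgroup.zpowers ζ = ⊤ := by
    apply Subgroup.eq_top_of_card_eq
    rw [Nat.card_zpowers, hζ, hcard]
  have hu : u ∈ Subgroup.zpowers ζ := by rw [htop]; exact Subgroup.mem_top u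
  rw [← mem_powers_iff_mem_zpowers] at hu
  exact (Submonoid.mem_powers_iff _ _).1 hu

end Cfsg.Agent.Lib.Helper38.DG33
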