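import Mathlib
import Cfsg.Agent.Lib.Helper38.DG33.RCommon

/-!
# DG33 (S3670), [RAW] sub-package [RINTER]: `B ∩ w B w⁻¹ = ⟨t⟩`
-/

set_option autoImplicit false

namespace Cfsg.Agent.Lib.Helper38.DG33

open Matrix Cfsg.Agent.Lib.Helper45 Cfsg.Agent.Lib.Helper86.Un Cfsg.Agent.Lib.Helper86.SU3
  Cfsg.Agent.Lib.Helper86.SL3 Cfsg.Agent.Lib.Helper14.DG33 Cfsg.Agent.Lib.Helper19.DG33

universe u

/-- [RINTER] -/
theorem pkgRInter : PkgRInter.{u} := by
  intro F _ _ hF ζ hζ b hb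
  have hw : (wm hF)⁻¹ = wm hF := by
    rw [inv_eq_iff_mul_eq_one]
    exact fU_mul
  rw [hw]
  have hmat : mat (wm hF * b * wm hF) = f3 F * mat b * f3 F := by
    rw [mat_mul', mat_mul', mat_wm]
  have hiff : wm hF * b * wm hF ∈ Bm hF ↔ (mat b 0 1 = 0 ∧ mat b 0 2 = 0 ∧ mat b 1 2 = 0) := by
    rw [mem_Bm, hmat]
    simp only [Matrix.mul_apply, Fin.sum_univ_three]
    simp [Cfsg.Agent.Lib.Helper86.SU3.f3]
    tauto
  rw [hiff]
  obtain ⟨g1, g2, g3⟩ := hb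
  constructor
  · rintro ⟨u1, u2, u3⟩
    obtain ⟨h1, h2⟩ := bm_diag hF b ⟨g1, g2, g3⟩
    have ha : mat b 0 0 ≠ 0 := by
      intro h0
      rw [h0, mul_zero] at h1
      exact zero_ne_one h1
    obtain ⟨k, hk⟩ := exists_pow_of_order hF ζ hζ (Units.mk0 (mat b 0 0) ha)
    rw [Subgroup.mem_zpowers_iff]
    refine ⟨k, ?_⟩
    rw [zpow_natCast, tm_pow, hk]
    apply mat_injective
    rw [mat_tm]
    have h22 : mat b 2 2 = (sigmaQ hF (mat b 0 0))⁻¹ := by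
      have e : sigmaQ hF (mat b 2 2) = (mat b 0 0)⁻¹ := eq_inv_of_mul_eq_one_left h1
      have := congrArg (sigmaQ hF) e
      rwa [sig_sig, map_inv₀] at this
    have hσa : sigmaQ hF (mat b 0 0) ≠ 0 := by
      rwa [map_ne_zero]
    have h11 : mat b 1 1 = sigmaQ hF (mat b 0 0) * (mat b 0 0)⁻¹ := by
      rw [h22] at h2
      field_simp at h2 ⊢
      linear_combination h2
    ext i j
    fin_cases i <;> fin_cases j <;> simp [T3, D3, g1, g2, g3, u1, u2, u3, h11, h22]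
  · intro hmem
    obtain ⟨n, rfl⟩ := Subgroup.mem_zpowers_iff.1 hmem
    rw [tm_zpow, mat_tm]
    simp [T3, D3]

end Cfsg.Agent.Lib.Helper38.DG33
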